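import Cfsg.Agent.H742.PD.BigE6
import Cfsg.Agent.H56.Exc.Sec

/-!
# Class 8 in the sections of `E₆(q)` (S3938, helper627)

`cls8_E6` : the hypothesis `h8` of `H190.Spr.eq_e6` for `S ≤ K / O`, `K ≤ E₆(q)`, `O` of order prime to class 8.
-/

set_option autoImplicit false

namespace Cfsg.Agent.H627.Spr

open Subgroup Cfsg Cfsg.Lie Cfsg.Agent.H436 Cfsg.Agent.H56.Exc

/-- the primes of class 8 are big in the sections of `E₆(q)` -/
theorem big8_E6 {F : Type} [Field F] [Fintype F] {q : ℕ} (hq : Fintype.card F = q) {K : Subgroup ↥(chevE6.group F)}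
    {O : Subgroup K} [O.Normal] (hO : ∀ s, Prim q 8 s → ¬ s ∣ Nat.card O) {S : Subgroup (K ⧸ O)} {s : ℕ}
    (hs : Prim q 8 s) : Big S s ((q ^ 4 + 1) * (q ^ 2 - 1)) 8 := by
  have h1 : 1 ≤ q ^ 2 := Nat.one_le_pow _ _ (by rw [← hq]; exact Fintype.card_pos)
  have h2 : Big ↥(chevE6.group F) s ((q ^ 4 + 1) * (q ^ 2 - 1)) 8 :=
    H742.PD.big_E6_8 hq (by push_cast [h1]; ring) hs
  exact ((h2.subgroup K).quotient O (hO s hs)).subgroup S

theorem cls8_E6 {F : Type} [Field F] [Fintype F] {q : ℕ} (hq : Fintype.card F = q) {K : Subgroup ↥(chevE6.group F)}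
    {O : Subgroup K} [O.Normal] (hO : ∀ s, Prim q 8 s → ¬ s ∣ Nat.card O) {S : Subgroup (K ⧸ O)} :
    ∀ s, Prim q 8 s → ∀ x : S, orderOf x = s →
      Nat.card ↥(centralizer ({x} : Set S)) ∣ (q ^ 4 + 1) * (q ^ 2 - 1) :=
  fun _ hs x hx => (big8_E6 hq hO hs).card x hx

end Cfsg.Agent.H627.Spr
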